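import Cfsg.Agent.E7AltSection65.Kernel
import Cfsg.Agent.Chevalley.Weights.E8
import Cfsg.Agent.Chevalley.Parabolic
import Cfsg.Agent.AltLinear.Reduction
import Cfsg.Agent.AltCover.Main
import Cfsg.Agent.E6AltSection.Lift

/-!
The kernel of a minimal extension of the alternating group of degree eighteen inside a group of
type E8 has order prime to three.
-/

set_option autoImplicit false
set_option linter.style.haveILetI false

namespace CfsgLib.E8Alt74

open Cfsg.Lie CfsgLib.Chevalley CfsgLib.AltLinear CfsgLib.E7Alt65 Equiv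
open scoped commutatorElement

set_option maxRecDepth 16000 in
/-- The order of the Weyl group of type E8. -/
theorem natCard_weylE8 :
    Nat.card ↥(F4AltSection.weylPerms sysE8) = 696729600 := by
  rw [F4AltSection.natCard_weylPerms]
  have h := lenSumE8 (ZMod 2) 1
  simp only [Sys.lenSum, one_pow, Finset.sum_const, nsmul_eq_mul, mul_one] at h
  have h' := h.trans (show _ = ((696729600 : ℕ) : ℤ) by rfl)
  exact_mod_cast h'

/-- The monomial subgroup has index prime to three. -/
theorem three_index_monomial {F : Type} [Field F] [Fintype F] (hq : 729 ∣ Fintype.card F - 1) :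
    ¬ 3 ∣ ((chevE8.monomialSubgroup F).subgroupOf (chevE8.group F)).index := by
  classical
  have hN : Nat.card ↥(chevE8.monomialSubgroup F) =
      Nat.card ↥(chevE8.diagonalSubgroup F) * 696729600 := by
    have hrange : (Sys.perm sysE8 F).range = F4AltSection.weylPerms sysE8 := by
      refine le_antisymm ?_ ?_
      · rintro _ ⟨n, rfl⟩
        exact Sys.exists_wperm sysE8 F n
      · rintro _ ⟨L, rfl⟩
        exact ⟨Sys.wN sysE8 F L, Sys.perm_wN sysE8 F L⟩
    have h1 := (Sys.perm sysE8 F).ker.card_mul_index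
    rw [Subgroup.index_ker, hrange, natCard_weylE8, Sys.ker_perm sysE8 F] at h1
    rw [← h1]
    congr 1
    exact Nat.card_congr (Subgroup.subgroupOfEquivOfLe
      (le_sup_left : chevE8.diagonalSubgroup F ≤ chevE8.monomialSubgroup F)).toEquiv
  have h := ((chevE8.monomialSubgroup F).subgroupOf (chevE8.group F)).card_mul_index
  rw [Nat.card_congr (Subgroup.subgroupOfEquivOfLe (Sys.monomial_le_group sysE8 F)).toEquiv] at h
  set I := ((chevE8.monomialSubgroup F).subgroupOf (chevE8.group F)).index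
  intro h3
  obtain ⟨j, hj⟩ := h3
  have hG := Sys.natCard_group sysE8 F
  have e : ((696729600 * I : ℕ) : ℤ) = ((Fintype.card F : ℤ) ^ (chevE8.nroots / 2) *
      Sys.lenSum sysE8 (List.range chevE8.rank) (Fintype.card F)) := by
    refine mul_left_cancel₀ (a := (Nat.card ↥(chevE8.diagonalSubgroup F) : ℤ))
      (Int.natCast_ne_zero.mpr Nat.card_pos.ne') ?_
    rw [← Nat.cast_mul, ← mul_assoc, ← hN, h, hG]
    ring
  have hq1 : ((Fintype.card F : ℕ) : ZMod 729) = 1 := by
    rw [← Nat.cast_one, ZMod.natCast_eq_natCast_iff, Nat.ModEq.comm,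
      Nat.modEq_iff_dvd' Fintype.card_pos]
    exact hq
  have hW : ((Sys.wSet sysE8 (List.range chevE8.rank)).card : ZMod 729) = 243 := by
    rw [← F4AltSection.natCard_weylPerms, natCard_weylE8]
    rfl
  have e' := congrArg (fun z : ℤ => (z : ZMod 729)) e
  simp only [Int.cast_natCast, Int.cast_mul, Int.cast_pow, hq1, one_pow, one_mul,
    Sys.lenSum, Int.cast_sum, Finset.sum_const, nsmul_eq_mul, mul_one, hW] at e'
  rw [hj, show 696729600 * (3 * j) = 729 * (2867200 * j) by ring, Nat.cast_mul,
    show ((729 : ℕ) : ZMod 729) = 0 from rfl, zero_mul] at e'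
  exact absurd e' (by decide)

section Bound

variable {F : Type} [Field F] [Fintype F]

set_option maxRecDepth 16000 in
/-- The torus has at most `3 ^ 8` elements killed by three. -/
theorem card_torsion_three :
    Nat.card {t : GL chevE8.Idx F // t ∈ chevE8.diagonalSubgroup F ∧ t ^ 3 = 1} ≤ 3 ^ chevE8.rank := by
  classical
  set X := {t : GL chevE8.Idx F // t ∈ chevE8.diagonalSubgroup F ∧ t ^ 3 = 1}
  let Z := {x : F // x ∈ (Polynomial.nthRoots 3 (1 : F)).toFinset}
  have hval : ∀ t : X, ∃ c : ℕ → Fˣ, tor chevE8 F c = t.1 := fun t =>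
    (Subgroup.ext_iff.mp (Sys.diagonal_eq sysE8 (F := F)) _).mp t.2.1
  choose c hc using hval
  have hentry : ∀ (t : X) (s : Fin chevE8.nroots),
      (t.1 : Matrix chevE8.Idx chevE8.Idx F) (Sum.inr s) (Sum.inr s) = (torusVal chevE8 (c t) s : F) := fun t s => by
    rw [← hc t]
    simp [Sys.tor_val sysE8, dg, Matrix.diagonal_apply_eq]
  have hroot : ∀ (t : X) (s : Fin chevE8.nroots), (torusVal chevE8 (c t) s : F) ∈ (Polynomial.nthRoots 3 (1 : F)).toFinset := fun t s => by
    rw [Multiset.mem_toFinset, Polynomial.mem_nthRoots (by norm_num)]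
    have h := congrArg (fun M : GL chevE8.Idx F => (M : Matrix chevE8.Idx chevE8.Idx F) (Sum.inr s) (Sum.inr s)) t.2.2
    rw [← hc t] at h
    simpa [Sys.tor_val sysE8, dg, Matrix.diagonal_pow] using h
  let f : X → (Fin 8 → Z) := fun t m => ⟨_, hroot t ⟨chevE8.simple m, sysE8.wf.simple_lt m m.isLt⟩⟩
  have hf : Function.Injective f := by
    intro t t' h
    have hall : ∀ s : Fin chevE8.nroots, torusVal chevE8 (c t) s = torusVal chevE8 (c t') s := fun s => by
      rw [F4AltSection.torusVal_vec sysE8 (c t) s.isLt, F4AltSection.torusVal_vec sysE8 (c t') s.isLt]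
      refine Finset.prod_congr rfl fun m hm => ?_
      congr 1
      exact Units.ext (congrArg Subtype.val (congrFun h ⟨m, Finset.mem_range.mp hm⟩))
    refine Subtype.ext ?_
    rw [← hc t, ← hc t']
    refine Units.ext ?_
    rw [Sys.tor_val sysE8, Sys.tor_val sysE8, dg, dg]
    congr 1
    funext x
    rcases x with i | s
    · rfl
    · exact congrArg (fun u : Fˣ => (u : F)) (hall s)
  refine (Nat.card_le_card_of_injective f hf).trans ?_
  rw [Nat.card_fun, Nat.card_fin, Nat.card_eq_finsetCard, show chevE8.rank = 8 from rfl]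
  exact Nat.pow_le_pow_left ((Multiset.toFinset_card_le _).trans (Polynomial.card_nthRoots 3 1)) 8

/-- The automorphism groups of elementary abelian groups of order at most `3 ^ 13` are too small. -/
theorem not_dvd_card_aut : ∀ d ≤ 13, ¬ Nat.card ↥(alternatingGroup (Fin 18)) ∣
    ∏ k : Fin d, (3 ^ d - 3 ^ (k : ℕ)) := by
  intro d hd h
  have h17 : 17 ∣ Nat.card ↥(alternatingGroup (Fin 18)) := by
    rw [nat_card_alternatingGroup, Nat.card_fin]
    decide +kernel
  have := h17.trans h
  revert this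
  interval_cases d <;> decide +kernel

/-- A three-subgroup has no abelian quotient of exponent three of order exceeding `3 ^ 13`. -/
theorem three_quotient (hq : 729 ∣ Fintype.card F - 1)
    {U V : Type*} [Group U] [Finite U] [CommGroup V] [Finite V] (hU : IsPGroup 3 U)
    (i : U →* GL chevE8.Idx F) (hi : Function.Injective i) (hig : ∀ u, i u ∈ chevE8.group F)
    (φ : U →* V) (hφ : Function.Surjective φ) (hV : ∀ v : V, v ^ 3 = 1) :
    ∃ d : ℕ, d ≤ 13 ∧ Nat.card V = 3 ^ d := by
  classical
  haveI := Fact.mk Nat.prime_three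
  have hidx := three_index_monomial hq
  have hl : Nat.Prime 3 := Fact.out
  obtain ⟨d, hd⟩ := IsPGroup.iff_card.mp (hU.of_surjective φ hφ)
  refine ⟨d, ?_, hd⟩
  let j : U →* ↥(chevE8.group F) := i.codRestrict _ hig
  obtain ⟨g, hg⟩ := F4AltSection.exists_conj_into
    ((chevE8.monomialSubgroup F).subgroupOf (chevE8.group F)) hidx
    (hU.of_surjective j.rangeRestrict j.rangeRestrict_surjective)
  have hmem : ∀ u, (MulAut.conj (g : GL chevE8.Idx F)) (i u) ∈ chevE8.monomialSubgroup F := fun u => by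
    have := hg (j u) ⟨u, rfl⟩
    rwa [Subgroup.mem_subgroupOf, Subgroup.coe_mul, Subgroup.coe_mul, Subgroup.coe_inv] at this
  let k : U →* ↥(chevE8.monomialSubgroup F) :=
    ((MulAut.conj (g : GL chevE8.Idx F)).toMonoidHom.comp i).codRestrict _ hmem
  have hk : Function.Injective k := fun a b h =>
    hi ((MulAut.conj (g : GL chevE8.Idx F)).injective (congrArg Subtype.val h))
  let θ : U →* Equiv.Perm (Fin chevE8.nroots) := (sysE8.perm F).comp k
  have hrange : θ.range ≤ F4AltSection.weylPerms sysE8 := by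
    rintro _ ⟨u, rfl⟩
    exact sysE8.exists_wperm F (k u)
  have hθ : Nat.card θ.range ≤ 3 ^ 5 := by
    obtain ⟨e, he⟩ := IsPGroup.iff_card.mp (hU.of_surjective θ.rangeRestrict θ.rangeRestrict_surjective)
    have hdvd := Subgroup.card_dvd_of_le hrange
    rw [he] at hdvd ⊢
    refine Nat.pow_le_pow_right (by norm_num) ?_
    by_contra hc
    rw [natCard_weylE8] at hdvd
    exact absurd ((Nat.pow_dvd_pow 3 (by omega : 6 ≤ e)).trans hdvd) (by norm_num)
  -- the kernel is abelian and has few elements killed by `3`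
  have hker : ∀ u ∈ θ.ker, ((k u : ↥(chevE8.monomialSubgroup F)) : GL chevE8.Idx F) ∈
      chevE8.diagonalSubgroup F := fun u hu => by
    have : k u ∈ (sysE8.perm F).ker := hu
    rwa [sysE8.ker_perm F, hSub, Subgroup.mem_subgroupOf] at this
  have hcomm : ∀ a b : ↥θ.ker, a * b = b * a := fun a b => Subtype.ext (hk (Subtype.ext (by
    simp only [Subgroup.coe_mul, map_mul]
    exact sysE8.diagonal_comm F (hker _ a.2) (hker _ b.2))))
  letI : CommGroup ↥θ.ker := { (inferInstance : Group ↥θ.ker) with mul_comm := hcomm }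
  let p : ↥θ.ker →* ↥θ.ker := powMonoidHom 3
  let ψ : ↥θ.ker →* V := φ.comp θ.ker.subtype
  have hψ : Nat.card ψ.range ≤ 3 ^ chevE8.rank := by
    have hle : p.range ≤ ψ.ker := by
      rintro _ ⟨a, rfl⟩
      show φ (((a ^ 3 : ↥θ.ker)) : U) = 1
      rw [SubmonoidClass.coe_pow, map_pow, hV]
    have h1 : ψ.ker.index ≤ p.range.index :=
      Nat.le_of_dvd (Nat.pos_of_ne_zero Subgroup.index_ne_zero_of_finite) (Subgroup.index_dvd_of_le hle)
    rw [Subgroup.index_ker] at h1
    have h2 : p.range.index = Nat.card p.ker := by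
      have e1 := p.ker.card_mul_index
      have e2 := p.range.card_mul_index
      rw [Subgroup.index_ker] at e1
      rw [← e1, mul_comm (Nat.card p.ker)] at e2
      exact Nat.eq_of_mul_eq_mul_left Nat.card_pos e2
    refine (h1.trans h2.le).trans ?_
    refine le_trans (Nat.card_le_card_of_injective (fun a : ↥p.ker =>
      (⟨((k (a.1 : U) : ↥(chevE8.monomialSubgroup F)) : GL chevE8.Idx F), hker _ a.1.2, by
        have ha : (a.1 : ↥θ.ker) ^ 3 = 1 := a.2
        have hb := congrArg Subtype.val ha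
        rw [SubmonoidClass.coe_pow, OneMemClass.coe_one] at hb
        rw [← SubmonoidClass.coe_pow, ← map_pow, hb, map_one]; rfl⟩ :
        {t : GL chevE8.Idx F // t ∈ chevE8.diagonalSubgroup F ∧ t ^ 3 = 1})) ?_) card_torsion_three
    intro a b h
    have h' := congrArg Subtype.val h
    exact Subtype.ext (Subtype.ext (hk (Subtype.ext h')))
  have hrng : ψ.range = θ.ker.map φ := by
    rw [MonoidHom.range_comp, Subgroup.range_subtype]
  have hidx' : (θ.ker.map φ).index ≤ 3 ^ 5 := by
    refine le_trans (Nat.le_of_dvd (Nat.pos_of_ne_zero Subgroup.index_ne_zero_of_finite)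
      (Subgroup.index_map_dvd θ.ker hφ)) ?_
    rwa [Subgroup.index_ker]
  have hc := (θ.ker.map φ).card_mul_index
  rw [hrng] at hψ
  have : 3 ^ d ≤ 3 ^ 13 := by
    rw [← hd, ← hc]
    exact (Nat.mul_le_mul hψ hidx').trans (by rw [show chevE8.rank = 8 from rfl]; norm_num)
  exact (Nat.pow_le_pow_iff_right (by norm_num)).mp this

/-- A minimal extension of the alternating group of degree eighteen acts trivially on normal sections
of three-power order. -/
theorem three_section (hq : 729 ∣ Fintype.card F - 1)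
    {H : Type*} [Group H] [Finite H] (i : H →* GL chevE8.Idx F)
    (hi : Function.Injective i) (hig : ∀ h, i h ∈ chevE8.group F)
    (π : H →* ↥(alternatingGroup (Fin 18)))
    (hπ : Function.Surjective π) (hmin : ∀ U : Subgroup H, U.map π = ⊤ → U = ⊤)
    (U : Subgroup H) [hUn : U.Normal] (hU : IsPGroup 3 ↥U) (h : H) (u : H) (hu : u ∈ U) :
    ⁅h, u⁆ ∈ omegaPrime 3 U := by
  classical
  haveI := Fact.mk Nat.prime_three
  haveI := omegaPrime_normal 3 U
  let N : Subgroup ↥U := (omegaPrime 3 U).subgroupOf U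
  letI : CommGroup (↥U ⧸ N) :=
    { (inferInstance : Group (↥U ⧸ N)) with
      mul_comm := by
        intro a b
        obtain ⟨a, rfl⟩ := QuotientGroup.mk'_surjective N a
        obtain ⟨b, rfl⟩ := QuotientGroup.mk'_surjective N b
        show Commute _ _
        rw [← commutatorElement_eq_one_iff_commute, ← map_commutatorElement,
          QuotientGroup.mk'_apply, QuotientGroup.eq_one_iff, Subgroup.mem_subgroupOf]
        refine Subgroup.subset_closure (Or.inr ⟨a, a.2, b, b.2, ?_⟩)
        simp [commutatorElement_def] }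
  have hV : ∀ v : ↥U ⧸ N, v ^ 3 = 1 := by
    intro v
    obtain ⟨v, rfl⟩ := QuotientGroup.mk'_surjective N v
    rw [← map_pow, QuotientGroup.mk'_apply, QuotientGroup.eq_one_iff, Subgroup.mem_subgroupOf]
    exact Subgroup.subset_closure (Or.inl ⟨v, v.2, by simp⟩)
  obtain ⟨d, hdr, hd⟩ := three_quotient hq hU (i.comp U.subtype)
    (hi.comp Subtype.val_injective) (fun x => hig _) (QuotientGroup.mk' N)
    (QuotientGroup.mk'_surjective N) hV
  have hNmap : ∀ g : H, N.map (MulAut.conjNormal g : MulAut ↥U).toMonoidHom = N := by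
    intro g
    apply le_antisymm
    · rintro _ ⟨x, hx, rfl⟩
      rw [SetLike.mem_coe, Subgroup.mem_subgroupOf] at hx
      rw [Subgroup.mem_subgroupOf]
      show ((MulAut.conjNormal g x : ↥U) : H) ∈ omegaPrime 3 U
      rw [MulAut.conjNormal_apply]
      exact (omegaPrime_normal 3 U).conj_mem _ hx g
    · intro x hx
      refine ⟨MulAut.conjNormal g⁻¹ x, ?_, by simp⟩
      rw [SetLike.mem_coe, Subgroup.mem_subgroupOf] at *
      rw [MulAut.conjNormal_apply]
      exact (omegaPrime_normal 3 U).conj_mem _ hx _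
  let Φ : H →* MulAut (↥U ⧸ N) :=
    { toFun := fun g => QuotientGroup.congr N N (MulAut.conjNormal g) (hNmap g)
      map_one' := MulEquiv.ext fun x => by
        obtain ⟨x, rfl⟩ := QuotientGroup.mk'_surjective N x
        simp
      map_mul' := fun g g' => MulEquiv.ext fun x => by
        obtain ⟨x, rfl⟩ := QuotientGroup.mk'_surjective N x
        simp only [map_mul, MulAut.mul_apply, QuotientGroup.mk'_apply, QuotientGroup.congr_mk]
        rfl }
  suffices hker : Φ.ker = ⊤ by
    have h1 : Φ h = 1 := MonoidHom.mem_ker.mp (hker ▸ Subgroup.mem_top h)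
    have h2 : QuotientGroup.mk' N (MulAut.conjNormal h ⟨u, hu⟩) = QuotientGroup.mk' N ⟨u, hu⟩ :=
      DFunLike.congr_fun h1 (QuotientGroup.mk' N ⟨u, hu⟩)
    rw [← mul_inv_eq_one, ← map_inv, ← map_mul, QuotientGroup.mk'_apply, QuotientGroup.eq_one_iff,
      Subgroup.mem_subgroupOf, Subgroup.coe_mul, Subgroup.coe_inv, MulAut.conjNormal_apply] at h2
    rwa [commutatorElement_def]
  refine hmin _ ?_
  haveI : IsSimpleGroup ↥(alternatingGroup (Fin 18)) := alternatingGroup.isSimpleGroup (by simp)
  rcases ((MonoidHom.normal_ker Φ).map π hπ).eq_bot_or_eq_top with hb | ht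
  · exfalso
    have hle : Φ.ker ≤ π.ker := (Subgroup.map_eq_bot_iff _).mp hb
    have h1 := Subgroup.index_dvd_of_le hle
    rw [Subgroup.index_ker, Subgroup.index_ker, MonoidHom.range_eq_top.mpr hπ, Subgroup.card_top] at h1
    exact not_dvd_card_aut d hdr ((h1.trans (Subgroup.card_subgroup_dvd_card _)).trans (card_mulAut_prime hV hd))
  · exact ht



/-- A minimal covering of the alternating group of degree eighteen has no central three-group in the kernel. -/
theorem central_three_eq_bot {Γ : Type} [Group Γ] [Finite Γ] {π : Γ →* Alt 18} (hπ : Function.Surjective π) (hmin : ∀ M : Subgroup Γ, M ≠ ⊤ → M.map π ≠ ⊤)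
    (P : Subgroup Γ) (hPK : P ≤ π.ker) (hP : IsPGroup 3 P) (hcop : ¬ 3 ∣ (P.subgroupOf π.ker).index)
    (hc : P ≤ Subgroup.center Γ) : P = ⊥ := by
  classical
  haveI := Fact.mk Nat.prime_three
  set K := π.ker
  haveI : (P.subgroupOf K).Normal := ⟨fun n hn g => by
    rw [Subgroup.mem_subgroupOf] at hn ⊢
    rw [Subgroup.coe_mul, Subgroup.coe_mul, Subgroup.coe_inv, Subgroup.mem_center_iff.1 (hc hn), mul_inv_cancel_right]
    exact hn⟩
  obtain ⟨a, ha⟩ := IsPGroup.iff_card.1 hP
  have hPc : Nat.card (P.subgroupOf K) = 3 ^ a := by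
    rw [Nat.card_congr (Subgroup.subgroupOfEquivOfLe hPK).toEquiv, ha]
  have hco : Nat.Coprime (Nat.card (P.subgroupOf K)) (P.subgroupOf K).index := by
    rw [hPc]
    exact Nat.Coprime.pow_left _ ((Nat.prime_three.coprime_iff_not_dvd).2 hcop)
  obtain ⟨Q, hQ⟩ := Subgroup.exists_right_complement'_of_coprime hco
  set m := (P.subgroupOf K).index
  have hQm : ∀ q ∈ Q, q ^ m = 1 := fun q hq => by
    have hcard : Nat.card Q = m := hQ.symm.index_eq_card.symm
    have := congrArg Subtype.val (pow_card_eq_one' (x := (⟨q, hq⟩ : Q)))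
    rw [hcard] at this
    exact this
  have hmem : ∀ x : K, x ^ m = 1 → x ∈ Q := fun x hx => by
    obtain ⟨⟨⟨u, hu⟩, ⟨v, hv⟩⟩, e, -⟩ := hQ.existsUnique x
    have huv : (⟨u, hu⟩ : P.subgroupOf K).1 * v = x := e
    have hcomm : Commute u v := Subtype.ext (Subgroup.mem_center_iff.1 (hc hu) v).symm
    rw [← huv, hcomm.mul_pow, hQm v hv, mul_one] at hx
    have : u = 1 := E6AltSection.eq_one_of_coprime hco
      (by
        have := congrArg Subtype.val (pow_card_eq_one' (x := (⟨u, hu⟩ : P.subgroupOf K)))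
        exact this) hx
    have e2 : x = v := huv.symm.trans (show u * v = v by rw [this, one_mul])
    rw [e2]
    exact hv
  set N : Subgroup Γ := Q.map K.subtype
  haveI hN : N.Normal := ⟨by
    rintro _ ⟨q, hq, rfl⟩ g
    have hmem' : g * (q : Γ) * g⁻¹ ∈ K := (MonoidHom.normal_ker π).conj_mem _ q.2 g
    refine ⟨⟨_, hmem'⟩, hmem _ (Subtype.ext ?_), rfl⟩
    rw [Subgroup.coe_pow, conj_pow, ← Subgroup.coe_pow, hQm q hq]
    simp⟩
  have hNK : N ≤ K := Subgroup.map_subtype_le Q
  let πb : Γ ⧸ N →* Alt 18 := QuotientGroup.lift N π hNK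
  let q : Γ ⧸ N →* Perm (Fin 18) := (alternatingGroup (Fin 18)).subtype.comp πb
  have hkerP : ∀ x : Γ, π x = 1 → ∃ u ∈ P, (QuotientGroup.mk x : Γ ⧸ N) = QuotientGroup.mk u := fun x hx => by
    obtain ⟨⟨⟨u, hu⟩, ⟨v, hv⟩⟩, e, -⟩ := hQ.existsUnique ⟨x, hx⟩
    refine ⟨u.1, hu, ?_⟩
    have e' : (u : Γ) * (v : Γ) = x := congrArg Subtype.val e
    rw [← e', QuotientGroup.mk_mul, (QuotientGroup.eq_one_iff (v : Γ)).2 (Subgroup.mem_map_of_mem K.subtype hv), mul_one]
  have hqker : ∀ z : Γ ⧸ N, z ∈ q.ker → ∃ u ∈ P, z = QuotientGroup.mk u := fun z hz => by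
    obtain ⟨x, rfl⟩ := QuotientGroup.mk_surjective z
    exact hkerP x (Subtype.ext hz)
  have hperf : commutator (Γ ⧸ N) = ⊤ := by
    rw [commutator_def, ← Subgroup.map_top_of_surjective (QuotientGroup.mk' N) (QuotientGroup.mk'_surjective N),
      ← Subgroup.map_commutator, ← commutator_def, perfect_of_min (by norm_num) hπ hmin]
  have hext : CfsgLib.AltCover.IsExt q := ⟨by
    refine le_antisymm (fun _ ⟨y, hy⟩ => hy ▸ (πb y).2) fun x hx => ?_
    obtain ⟨y, hy⟩ := hπ ⟨x, hx⟩
    exact ⟨QuotientGroup.mk y, congrArg Subtype.val hy⟩, fun z hz => by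
      obtain ⟨u, hu, rfl⟩ := hqker z hz
      refine Subgroup.mem_center_iff.2 fun g => ?_
      obtain ⟨g, rfl⟩ := QuotientGroup.mk_surjective g
      rw [← QuotientGroup.mk_mul, ← QuotientGroup.mk_mul, Subgroup.mem_center_iff.1 (hc hu)]⟩
  obtain ⟨δ, hδ, -, hle⟩ := CfsgLib.AltCover.ker_le_zpowers_klein (m := 16) (by norm_num) (Or.inr (by norm_num))
    hext (by rw [hperf]; exact le_top)
  refine (Subgroup.eq_bot_iff_forall _).2 fun u hu => ?_
  have hu' : (QuotientGroup.mk u : Γ ⧸ N) ∈ q.ker := by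
    rw [MonoidHom.mem_ker]
    exact congrArg Subtype.val (show π u = 1 from hPK hu)
  obtain ⟨i, hi⟩ := Subgroup.mem_zpowers_iff.1 (hle hu')
  have h2 : (QuotientGroup.mk u : Γ ⧸ N) ^ 2 = 1 := by
    rw [← hi, ← zpow_natCast, ← zpow_mul, mul_comm, zpow_mul, zpow_natCast, sq, hδ, one_zpow]
  have h5 : u ^ 3 ^ a = 1 := by
    have := congrArg Subtype.val (pow_card_eq_one' (x := (⟨u, hu⟩ : P)))
    rwa [ha] at this
  have h1 : (QuotientGroup.mk u : Γ ⧸ N) = 1 := E6AltSection.eq_one_of_coprime
    (show Nat.Coprime 2 (3 ^ a) from Nat.Coprime.pow_right _ (by norm_num)) h2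
    (by rw [← QuotientGroup.mk_pow, h5, QuotientGroup.mk_one])
  obtain ⟨v, hv, hvu⟩ := (QuotientGroup.eq_one_iff u).1 h1
  have : v ∈ P.subgroupOf K ⊓ Q := ⟨by show K.subtype v ∈ P; rw [hvu]; exact hu, hv⟩
  rw [hQ.disjoint.eq_bot, Subgroup.mem_bot] at this
  rw [← hvu, this]
  rfl

/-- The kernel of a minimal extension of the alternating group of degree eighteen inside a group of
type E8 has order prime to three. -/
theorem not_three_dvd_ker (hq : 729 ∣ Fintype.card F - 1) {H : Type} [Group H] [Finite H]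
    (i : H →* GL chevE8.Idx F) (hi : Function.Injective i) (hig : ∀ h, i h ∈ chevE8.group F)
    (π : H →* Alt 18) (hπ : Function.Surjective π) (hmin : ∀ U : Subgroup H, U.map π = ⊤ → U = ⊤) :
    ¬ 3 ∣ Nat.card ↥π.ker := by
  classical
  haveI := Fact.mk Nat.prime_three
  haveI : IsSimpleGroup ↥(alternatingGroup (Fin 18)) := alternatingGroup.isSimpleGroup (by simp)
  have hA' : commutator ↥(alternatingGroup (Fin 18)) = ⊤ :=
    commutator_alternatingGroup_eq_top (by simp)
  have hperf : commutator H = ⊤ := hmin _ (by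
    rw [commutator_def, Subgroup.map_commutator, ← MonoidHom.range_eq_map,
      MonoidHom.range_eq_top.mpr hπ, ← commutator_def, hA'])
  -- the kernel lies in the Frattini subgroup
  have hfr : π.ker ≤ frattini H := by
    refine le_iInf₂ fun M hM => ?_
    by_contra hle
    have hlt : M < M ⊔ π.ker := lt_of_le_of_ne le_sup_left fun e => hle (e ▸ le_sup_right)
    refine hM.1 (hmin M ?_)
    have htop := hM.2 _ hlt
    have := congrArg (Subgroup.map π) htop
    rwa [Subgroup.map_sup, (Subgroup.map_eq_bot_iff π.ker).mpr le_rfl, sup_bot_eq,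
      ← MonoidHom.range_eq_map, MonoidHom.range_eq_top.mpr hπ] at this
  haveI := frattini_nilpotent (G := H)
  haveI : Group.IsNilpotent ↥π.ker :=
    (Group.isNilpotent_congr (Subgroup.subgroupOfEquivOfLe hfr)).mp inferInstance
  intro hdl
  obtain ⟨P⟩ : Nonempty (Sylow 3 ↥π.ker) := inferInstance
  haveI hPn : (P : Subgroup ↥π.ker).Normal :=
    Sylow.normal_of_normalizerCondition Group.normalizerCondition_of_isNilpotent P
  haveI hPc : (P : Subgroup ↥π.ker).Characteristic := P.characteristic_of_normal hPn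
  let K : Subgroup H := (P : Subgroup ↥π.ker).map π.ker.subtype
  haveI hKn : K.Normal := ConjAct.normal_of_characteristic_of_normal
  have hK : IsPGroup 3 ↥K := P.2.map _
  have hKne : K ≠ ⊥ := by
    intro h
    have : (P : Subgroup ↥π.ker) = ⊥ :=
      (Subgroup.map_eq_bot_iff_of_injective _ π.ker.subtype_injective).mp h
    exact P.ne_bot_of_dvd_card hdl this
  -- it is central
  have hcent : ∀ m : ℕ, ∀ U : Subgroup H, U.Normal → IsPGroup 3 ↥U → Nat.card ↥U = m →
      U ≤ Subgroup.center H := by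
    intro m
    induction m using Nat.strong_induction_on with
    | _ m ih =>
      intro U hUn hU hm
      rcases eq_or_ne U ⊥ with rfl | hne
      · exact bot_le
      haveI := hUn
      have hlt : Nat.card ↥(omegaPrime 3 U) < m := by
        refine hm ▸ lt_of_le_of_ne (Subgroup.card_le_of_le (omegaPrime_le 3 U)) fun e => ?_
        exact omegaPrime_lt hU hne (Subgroup.eq_of_le_of_card_ge (omegaPrime_le 3 U) e.ge)
      have hΩ : omegaPrime 3 U ≤ Subgroup.center H :=
        ih _ hlt _ (omegaPrime_normal 3 U) (hU.to_le (omegaPrime_le 3 U)) rfl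
      have hsec : ∀ g : H, ∀ u ∈ U, ⁅g, u⁆ ∈ omegaPrime 3 U := fun g u hu =>
        three_section hq i hi hig π hπ hmin U hU g u hu
      intro u hu
      rw [Subgroup.mem_center_iff]
      let f : H →* ↥(Subgroup.center H) :=
        MonoidHom.mk' (fun h => ⟨⁅h, u⁆, hΩ (hsec h u hu)⟩)
          fun g g' => Subtype.ext (by
            show ⁅g * g', u⁆ = ⁅g, u⁆ * ⁅g', u⁆
            have hz : ⁅g', u⁆ ∈ Subgroup.center H := hΩ (hsec g' u hu)
            calc ⁅g * g', u⁆ = g * ⁅g', u⁆ * g⁻¹ * ⁅g, u⁆ := by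
                  simp only [commutatorElement_def]; group
              _ = ⁅g', u⁆ * ⁅g, u⁆ := by
                  rw [Subgroup.mem_center_iff.mp hz g, mul_inv_cancel_right]
              _ = _ := (Subgroup.mem_center_iff.mp hz _).symm)
      intro h
      have hf : commutator H ≤ f.ker := by
        rw [commutator_def, Subgroup.commutator_le]
        intro p _ q _
        rw [MonoidHom.mem_ker, map_commutatorElement, commutatorElement_eq_one_iff_mul_comm]
        exact Subtype.ext (Subgroup.mem_center_iff.mp (f q).2 _)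
      rw [hperf] at hf
      have := congrArg Subtype.val (MonoidHom.mem_ker.mp (hf (Subgroup.mem_top h)))
      exact commutatorElement_eq_one_iff_mul_comm.mp this
  have hZ : K ≤ Subgroup.center H := hcent _ K hKn hK rfl
  refine hKne (central_three_eq_bot hπ (fun M hM e => hM (hmin M e)) K ?_ hK ?_ hZ)
  · exact Subgroup.map_subtype_le _
  · rw [show K.subgroupOf π.ker = (P : Subgroup ↥π.ker) from
      Subgroup.comap_map_eq_self_of_injective π.ker.subtype_injective _]
    exact P.not_dvd_index

end Bound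

end CfsgLib.E8Alt74
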