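import Cfsg.Agent.E8AltSection74.Torus
import Cfsg.Agent.E8AltSection74.Alcove
import Cfsg.Agent.E8AltSection74.Kernel
import Cfsg.Agent.E8AltSection74.Sylow
import Cfsg.Agent.E8AltSection74.Count
import Cfsg.Agent.E7AltSection65.Lifts

/-!
The Chevalley group of type E8 has no section isomorphic to the alternating group of degree eighteen
when the field has enough roots of unity of three-power order.
-/

set_option autoImplicit false
set_option linter.style.haveILetI false

namespace CfsgLib.E8Alt74

open Cfsg.Lie CfsgLib.Chevalley Module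

/-- Elements of order three are products of three-cycles. -/
theorem cycleType_three {σ : Equiv.Perm (Fin 18)} (h : σ ^ 3 = 1) :
    σ.cycleType = Multiset.replicate (σ.support.card / 3) 3 := by
  by_cases h1 : σ = 1
  · simp [h1]
  haveI : Fact (Nat.Prime 3) := ⟨Nat.prime_three⟩
  have ho : orderOf σ = 3 := orderOf_eq_prime h h1
  obtain ⟨n, hn⟩ := Equiv.Perm.cycleType_prime_order (σ := σ) (by rw [ho]; exact Nat.prime_three)
  rw [ho] at hn
  have hs := Equiv.Perm.sum_cycleType σ
  rw [hn, Multiset.sum_replicate, smul_eq_mul] at hs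
  rw [hn, ← hs, Nat.mul_div_cancel _ (by norm_num : 0 < 3)]

/-- Elements of order three with equal small supports are conjugate. -/
theorem exists_conj_alt {a b : ↥(alternatingGroup (Fin 18))} (ha : a ^ 3 = 1) (hb : b ^ 3 = 1)
    (hab : (a : Equiv.Perm (Fin 18)).support.card = (b : Equiv.Perm (Fin 18)).support.card)
    (hle : (a : Equiv.Perm (Fin 18)).support.card ≤ 16) : ∃ q, q * a * q⁻¹ = b := by
  refine isConj_iff.mp (alternatingGroup.isConj_of ?_ (by simpa using hle))
  rw [Equiv.Perm.isConj_iff_cycleType_eq, cycleType_three, cycleType_three, hab]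
  · rw [← SubmonoidClass.coe_pow, hb, OneMemClass.coe_one]
  · rw [← SubmonoidClass.coe_pow, ha, OneMemClass.coe_one]

theorem factorization_alt18 :
    (Nat.card ↥(alternatingGroup (Fin 18))).factorization 3 = 8 := by
  have h : Nat.card ↥(alternatingGroup (Fin 18)) = 3 ^ 8 * (Nat.factorial 18 / 2 / 3 ^ 8) := by
    rw [nat_card_alternatingGroup]
    simp [Nat.card_eq_fintype_card]
    decide +kernel
  rw [h, Nat.factorization_mul (by norm_num) (by decide +kernel), Finsupp.add_apply,
    Nat.Prime.factorization_pow Nat.prime_three, Finsupp.single_eq_same,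
    Nat.factorization_eq_zero_of_not_dvd (by decide +kernel), add_zero]

/-- No minimal extension of the alternating group of degree eighteen lies in E8. -/
theorem no_eighteen_min {F : Type} [Field F] [Fintype F] (hq : 729 ∣ Fintype.card F - 1)
    {H : Type} [Group H] [Finite H] (i : H →* ↥(chevE8.group F)) (hi : Function.Injective i)
    (π : H →* ↥(alternatingGroup (Fin 18))) (hπ : Function.Surjective π)
    (hmin : ∀ U : Subgroup H, U.map π = ⊤ → U = ⊤) : False := by
  classical
  haveI : Fact (Nat.Prime 3) := ⟨Nat.prime_three⟩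
  let i' : H →* GL chevE8.Idx F := (chevE8.group F).subtype.comp i
  have hi' : Function.Injective i' := (chevE8.group F).subtype_injective.comp hi
  have hK : ¬ 3 ∣ Nat.card ↥π.ker := not_three_dvd_ker hq i' hi' (fun h => (i h).2) π hπ hmin
  obtain ⟨g, hg⟩ := IsCyclic.exists_ofOrder_eq_natCard (α := Fˣ)
  have hcard : Nat.card Fˣ = Fintype.card F - 1 := by
    rw [Nat.card_units, Nat.card_eq_fintype_card]
  have h3 : 3 ∣ Fintype.card F - 1 := (by norm_num : (3 : ℕ) ∣ 729).trans hq
  let ζ : Fˣ := g ^ ((Fintype.card F - 1) / 3)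
  have hne : Fintype.card F - 1 ≠ 0 := by have := Fintype.one_lt_card (α := F); omega
  have hζ : orderOf ζ = 3 := by
    have hd : (Fintype.card F - 1) / 3 ∣ Fintype.card F - 1 := Nat.div_dvd_of_dvd h3
    rw [orderOf_pow_of_dvd (by omega) (by rw [hg, hcard]; exact hd), hg, hcard,
      Nat.div_div_self h3 hne]
  have hζ' : IsPrimitiveRoot (ζ : F) 3 :=
    IsPrimitiveRoot.coe_units_iff.mpr (hζ ▸ IsPrimitiveRoot.orderOf ζ)
  let ρ : Representation F H (chevE8.Idx → F) :=
    { toFun := fun h => Matrix.toLin' (i' h : Matrix chevE8.Idx chevE8.Idx F)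
      map_one' := by rw [map_one, Units.val_one, Matrix.toLin'_one]; rfl
      map_mul' := fun a b => by rw [map_mul, Units.val_mul, Matrix.toLin'_mul]; rfl }
  have hdim : finrank F (chevE8.Idx → F) = 248 := by
    rw [Module.finrank_fintype_fun_eq_card, Fintype.card_sum, Fintype.card_fin, Fintype.card_fin]
    decide +kernel
  refine no_eighteen hπ hK hdim hζ' ρ fun x hx hm => ?_
  -- a Sylow subgroup of the preimage, moved into the monomial subgroup
  obtain ⟨P⟩ : Nonempty (Sylow 3 ↥(alternatingGroup (Fin 18))) := inferInstance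
  obtain ⟨T, hinj, hmap⟩ := E7Alt65.exists_sylow_lift π hπ hK (P : Subgroup _) P.2
  let ψ : ↥T →* ↥(alternatingGroup (Fin 18)) := π.comp T.subtype
  have hψ : Function.Injective ψ := fun a b e => Subtype.ext (hinj a.2 b.2 e)
  have hT : Nat.card ↥T = 3 ^ 8 := by
    have e1 : ψ.range = (P : Subgroup _) := by
      rw [← hmap, MonoidHom.range_comp, Subgroup.range_subtype]
    rw [Nat.card_congr (MonoidHom.ofInjective hψ).toEquiv, e1, P.card_eq_multiplicity,
      factorization_alt18]
  let j : ↥T →* ↥(chevE8.group F) := i.comp T.subtype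
  obtain ⟨y, hy⟩ := F4AltSection.exists_conj_into
    ((chevE8.monomialSubgroup F).subgroupOf (chevE8.group F)) (three_index_monomial hq)
    ((IsPGroup.of_card (n := 8) hT).of_surjective j.rangeRestrict j.rangeRestrict_surjective)
  have hmem : ∀ u : ↥T, (MulAut.conj (y : GL chevE8.Idx F)) (i' u.1) ∈ chevE8.monomialSubgroup F :=
    fun u => by
      have := hy (j u) ⟨u, rfl⟩
      rwa [Subgroup.mem_subgroupOf, Subgroup.coe_mul, Subgroup.coe_mul, Subgroup.coe_inv] at this
  let k : ↥T →* ↥(chevE8.monomialSubgroup F) :=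
    ((MulAut.conj (y : GL chevE8.Idx F)).toMonoidHom.comp (i'.comp T.subtype)).codRestrict _ hmem
  let θ : ↥T →* ↥(F4AltSection.weylPerms sysE8) :=
    ((Sys.perm sysE8 F).comp k).codRestrict _ fun u => Sys.exists_wperm sysE8 F (k u)
  haveI : Finite ↥(F4AltSection.weylPerms sysE8) :=
    Nat.finite_of_card_ne_zero (by rw [natCard_weylE8]; norm_num)
  obtain ⟨s, hs, hs3, hsm⟩ := exists_types ψ hψ hT θ (by rw [natCard_weylE8]; norm_num)
    (weylE8_exponent natCard_weylE8) _ hm
  -- it is conjugate to the element given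
  have hx' : π x ^ 3 = 1 := by rw [← map_pow, hx, map_one]
  have hs' : ψ s ^ 3 = 1 := by rw [← map_pow, hs3, map_one]
  obtain ⟨q, hq'⟩ := exists_conj_alt hs' hx' hsm (by omega)
  obtain ⟨h, hh⟩ := exists_conj_elem π hπ hK (x := (s : H)) (y := x)
    (by rw [← SubmonoidClass.coe_pow, hs3, OneMemClass.coe_one]) hx hq'
  have hxne : i' x ≠ 1 := by
    intro e
    have e' : x = 1 := hi' (by rw [e, map_one])
    subst e'
    simp at hm
  have hd : (y : GL chevE8.Idx F) * (i' h)⁻¹ * i' x * ((y : GL chevE8.Idx F) * (i' h)⁻¹)⁻¹ ∈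
      chevE8.diagonalSubgroup F := by
    have h1 : k s ∈ (Sys.perm sysE8 F).ker := congrArg Subtype.val (MonoidHom.mem_ker.mp hs)
    rw [Sys.ker_perm sysE8 F, hSub, Subgroup.mem_subgroupOf] at h1
    have h2 : (y : GL chevE8.Idx F) * (i' h)⁻¹ * i' x * ((y : GL chevE8.Idx F) * (i' h)⁻¹)⁻¹ =
        (k s : GL chevE8.Idx F) := by
      show _ = (y : GL chevE8.Idx F) * i' (s : H) * (y : GL chevE8.Idx F)⁻¹
      rw [← hh, map_mul, map_mul, map_inv]
      group
    rwa [h2]
  obtain ⟨f, hf, hprof⟩ := exists_profile hζ hd (by rw [← map_pow, hx, map_one]) hxne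
  have hval := hprof 0
  rw [if_pos rfl, ZMod.val_zero, pow_zero, Units.val_one] at hval
  show finrank F ↥(Module.End.eigenspace (Matrix.toLin'
    (i' x : Matrix chevE8.Idx chevE8.Idx F)) 1) ∈ _
  rw [hval]
  simp only [linVal]
  exact spec_three f hf

end CfsgLib.E8Alt74
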