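import Cfsg.Agent.E8AltSection74.Kernel
import Cfsg.Agent.E8AltSection74.Torus
import Cfsg.Agent.E8AltSection74.Alcove

/-!
The alternating group of degree nineteen is no section of a group of type E8 when seventeen divides
`q - 1`: the root values of a lift of a seventeen-cycle would be equidistributed.
-/

set_option autoImplicit false

namespace CfsgLib.E8Alt74

open Cfsg.Lie CfsgLib.Chevalley CfsgLib.AltLinear Equiv

/-- The seventeen-cycle of the first seventeen points. -/
def rot17 : Fin 19 → Fin 19 := fun i =>
  if i.val < 17 then ⟨(i.val + 1) % 17, by omega⟩ else i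

/-- The inverse of the seventeen-cycle. -/
def rot17i : Fin 19 → Fin 19 := fun i =>
  if i.val < 17 then ⟨(i.val + 16) % 17, by omega⟩ else i

/-- Multiplication by three on the first seventeen points, exchanging the last two. -/
def tri17 : Fin 19 → Fin 19 := fun i =>
  if i.val < 17 then ⟨(3 * i.val) % 17, by omega⟩ else if i.val = 17 then 18 else 17

/-- The inverse of `tri17`. -/
def tri17i : Fin 19 → Fin 19 := fun i =>
  if i.val < 17 then ⟨(6 * i.val) % 17, by omega⟩ else if i.val = 17 then 18 else 17

/-- The seventeen-cycle as a permutation. -/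
def rotP : Perm (Fin 19) := ⟨rot17, rot17i, by unfold Function.LeftInverse; decide, by unfold Function.RightInverse Function.LeftInverse; decide⟩

/-- The scaling permutation. -/
def triP : Perm (Fin 19) := ⟨tri17, tri17i, by unfold Function.LeftInverse; decide, by unfold Function.RightInverse Function.LeftInverse; decide⟩

theorem three_ne_zero17 : ((3 : ℕ) : ZMod 17) ≠ 0 := by decide

theorem three_generates17 :
    ∀ v : ZMod 17, v ≠ 0 → ∃ k : Fin 16, (3 : ZMod 17) ^ k.val = v := by decide +kernel

theorem exists_scaling : ∃ s q : Alt 19, orderOf s = 17 ∧ q * s * q⁻¹ = s ^ 3 := by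
  haveI := Fact.mk (show Nat.Prime 17 by norm_num)
  refine ⟨⟨rotP, Equiv.Perm.mem_alternatingGroup.mpr (by decide +kernel)⟩,
    ⟨triP, Equiv.Perm.mem_alternatingGroup.mpr (by decide +kernel)⟩, ?_, ?_⟩
  · refine orderOf_eq_prime (Subtype.ext ?_) fun h => ?_
    · show rotP ^ 17 = 1
      decide +kernel
    · have := congrArg (fun p : Alt 19 => (p : Perm (Fin 19)) 0) h
      revert this
      show rotP 0 = 0 → False
      decide +kernel
  · apply Subtype.ext
    show triP * rotP * triP⁻¹ = rotP ^ 3
    decide +kernel

/-- No section of a group of type E8 is alternating of degree nineteen (seventeen dividing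
`q - 1`). -/
theorem no_nineteen {F : Type} [Field F] [Fintype F] (hq : 17 ∣ Fintype.card F - 1) {H : Type}
    [Group H] [Finite H] (i : H →* ↥(chevE8.group F)) (hi : Function.Injective i)
    (π : H →* Alt 19) (hπ : Function.Surjective π) : False := by
  classical
  haveI := Fact.mk (show Nat.Prime 17 by norm_num)
  have hW : ¬ 17 ∣ (Sys.wSet sysE8 (List.range chevE8.rank)).card := by
    rw [← F4AltSection.natCard_weylPerms, natCard_weylE8]
    norm_num
  obtain ⟨ζ, hζ⟩ := exists_prime_orderOf_dvd_card' (G := Fˣ) 17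
    (by rw [Nat.card_eq_fintype_card, Fintype.card_units]; exact hq)
  obtain ⟨s, q, hs, hqs⟩ := exists_scaling
  obtain ⟨z, hz, hlift⟩ := F4AltSection.exists_lift_toral sysE8 hq hW i hi π hπ hs
  obtain ⟨x, -, hx⟩ := hlift q 3 hqs
  have hP : IsPGroup 17 ↥(Subgroup.zpowers (i z)) := IsPGroup.of_card (n := 1) (by
    rw [Nat.card_zpowers, orderOf_injective i hi, hz, pow_one])
  obtain ⟨g, hg⟩ := F4AltSection.exists_toral sysE8 hq hW hP
  have hd := hg (i z) (Subgroup.mem_zpowers _)
  simp only [Subgroup.coe_mul, Subgroup.coe_inv] at hd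
  obtain ⟨f, hf, hsc⟩ := count_scale (ℓ := 17) hζ (x := (i z : GL chevE8.Idx F))
    (y := (i x : GL chevE8.Idx F)) (j := 3) hd
    (by rw [← SubmonoidClass.coe_pow, ← map_pow, ← hz, pow_orderOf_eq_one, map_one]; rfl)
    (fun h => by
      have : z = 1 := hi ((Subtype.ext h).trans (map_one i).symm)
      rw [this, orderOf_one] at hz
      norm_num at hz)
    (by rw [← Subgroup.coe_inv, ← Subgroup.coe_mul, ← Subgroup.coe_mul, ← SubmonoidClass.coe_pow,
      ← map_inv, ← map_mul, ← map_mul, hx, map_pow])
    three_ne_zero17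
  have hpow : ∀ k : ℕ, cnt17 f ((3 : ZMod 17) ^ k) = cnt17 f 1 := by
    intro k
    induction k with
    | zero => rw [pow_zero]
    | succ k ih =>
      rw [pow_succ', ← ih]
      exact hsc _ (pow_ne_zero k (by exact_mod_cast three_ne_zero17))
  refine no_flat_seventeen f hf fun v w hv hw => ?_
  obtain ⟨k, rfl⟩ := three_generates17 v hv
  obtain ⟨l, rfl⟩ := three_generates17 w hw
  rw [hpow, hpow]

end CfsgLib.E8Alt74
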