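import Cfsg.Agent.E8AltSection74.Eighteen
import Cfsg.Agent.E8AltSection74.Nineteen
import Cfsg.Agent.AltExc.Setup
import Cfsg.Agent.ChevField.Map
import Mathlib.FieldTheory.Finite.Extension
import Mathlib.FieldTheory.Finite.Basic

/-!
The degree of an alternating section of the Chevalley groups of type E8: at most seventeen, or
eighteen in characteristic three.
-/

set_option autoImplicit false
set_option linter.style.haveILetI false

namespace CfsgLib.E8Alt74

open Cfsg.Lie CfsgLib.Chevalley

universe u

/-- Base change to a field whose order is one modulo a given number prime to the characteristic. -/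
theorem exists_baseChange {F : Type u} [Field F] [Fintype F] (p : ℕ) [Fact p.Prime] [CharP F p]
    (m : ℕ) (hm : Nat.Coprime p m) (hm0 : m ≠ 0) :
    ∃ (E : Type) (_ : Field E) (_ : Fintype E) (f : ↥(chevE8.group F) →* ↥(chevE8.group E)),
      Function.Injective f ∧ m ∣ Fintype.card E - 1 := by
  haveI : NeZero (Nat.totient m) :=
    ⟨(Nat.totient_pos.mpr (Nat.pos_of_ne_zero hm0)).ne'⟩
  haveI : Module.Finite F (FiniteField.Extension F p (Nat.totient m)) := Module.Finite.of_finite
  let E := FiniteField.Extension F p (Nat.totient m)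
  haveI : Fintype E := Fintype.ofFinite E
  let ι : F →+* E := algebraMap F E
  refine ⟨E, inferInstance, inferInstance,
    ((CfsgLib.ChevField.gmap chevE8 ι).comp (chevE8.group F).subtype).codRestrict _
      fun g => CfsgLib.ChevField.gmap_mem sysE8 ι g.2, fun a b h => ?_, ?_⟩
  · exact Subtype.ext (CfsgLib.ChevField.gmap_injective ι (congrArg Subtype.val h))
  · rw [← Nat.card_eq_fintype_card (α := E), Module.natCard_eq_pow_finrank (K := F),
      FiniteField.finrank_extension F p (Nat.totient m), Nat.card_eq_fintype_card]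
    obtain ⟨a, -, ha⟩ := FiniteField.card F p
    refine (Nat.modEq_iff_dvd' (Nat.one_le_pow _ _ Fintype.card_pos)).mp ?_
    exact (Nat.ModEq.pow_totient (by rw [ha]; exact Nat.Coprime.pow_left _ hm)).symm

/-- An alternating section gives one of smaller degree over any extension field. -/
theorem exists_transfer {G : Type u} {G' : Type} [Group G] [Group G'] (f : G →* G')
    (hf : Function.Injective f) {m r : ℕ} (hmr : m ≤ r) (L : Subgroup G) (K : Subgroup L)
    [K.Normal] (h : Nonempty (L ⧸ K ≃* ↥(alternatingGroup (Fin r)))) :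
    ∃ (H : Subgroup G') (φ : H →* ↥(alternatingGroup (Fin m))), Function.Surjective φ := by
  obtain ⟨H, φ, hφ⟩ := AltExc.exists_smaller (m := m) hmr L K h
  let e := Subgroup.equivMapOfInjective H f hf
  exact ⟨H.map f, φ.comp e.symm.toMonoidHom, hφ.comp e.symm.surjective⟩

/-- The degree bound. -/
theorem degree_bound {F : Type u} [Field F] [Fintype F] (p : ℕ) [Fact p.Prime] [CharP F p] (r : ℕ)
    (H : Subgroup ↥(chevE8.group F)) (K : Subgroup ↥H) [K.Normal]
    (h : Nonempty (↥H ⧸ K ≃* ↥(alternatingGroup (Fin r)))) :
    r ≤ 17 + (if p = 3 then 1 else 0) := by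
  classical
  have hp : p.Prime := Fact.out
  by_contra hr
  split_ifs at hr with hp3
  · obtain ⟨E, _, _, f, hf, hq⟩ := exists_baseChange (F := F) p 17
      (by subst hp3; norm_num) (by norm_num)
    obtain ⟨H', φ, hφ⟩ := exists_transfer f hf (m := 19) (by omega) H K h
    exact no_nineteen hq H'.subtype H'.subtype_injective φ hφ
  · obtain ⟨E, _, _, f, hf, hq⟩ := exists_baseChange (F := F) p 729
      (by
        rw [show (729 : ℕ) = 3 ^ 6 by norm_num]
        exact Nat.Coprime.pow_right _ ((Nat.coprime_primes hp Nat.prime_three).mpr hp3))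
      (by norm_num)
    obtain ⟨H', φ, hφ⟩ := exists_transfer f hf (m := 18) (by omega) H K h
    obtain ⟨H'', φ'', hφ'', hmin⟩ := AltExc.exists_min H' φ hφ
    refine no_eighteen_min hq H''.subtype H''.subtype_injective φ'' hφ'' fun U hU => ?_
    by_contra hne
    exact hmin U hne hU

end CfsgLib.E8Alt74
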